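import Cfsg.Agent.H993.OC.Row
import Cfsg.Agent.H846.RatB.Gal
import Cfsg.Agent.Blocks.OrbitSum

/-!
# S4891, (T1): the odd tool (helper623)

`S` a finite group, `p` a prime, `A` a `p`-group of automorphisms of `S`, `Ψ` an `A`-invariant `p`-rational character of
degree prime to `p` which does not contain the trivial character.

* `exists_fixed` : some irreducible constituent of `Ψ` is fixed by `A` and of degree prime to `p`.
* `main` : if the constituents of `Ψ` are separated by their multiplicities, degrees and inner products with some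
  `p`-rational characters `π i`, then `∃ θ, Wt p S A θ`.
* `odd_tool` : `⟨Ψ, Ψ⟩ = 2`, and `⟨Ψ, π⟩` is odd for some `p`-rational character `π`.
* `odd_tool_deg` : `⟨Ψ, Ψ⟩ = 2`, and the degree of `Ψ` is odd.
* `odd_tool_irr` : `Ψ` irreducible.
* the theorems give moreover that `θ` is a constituent of `Ψ` (`…'`).
-/

set_option autoImplicit false

open Cfsg
open scoped ComplexConjugate

namespace Cfsg.Agent.H623.OddTool

open Cfsg.Agent.H145.BR Cfsg.Agent.H993.OC Cfsg.Agent.Characters Cfsg.Agent.H846.RatB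
open H700.PRat (zet zet_prim fix_adjoin mem_adjoin_of_forall fix_root)

universe u v

variable {S : Type u} [Group S]

/-! ## Twists by automorphisms -/

/-- twist of an irreducible character by an automorphism -/
def tw (a : MulAut S) (χ : IrrCharacter S) : IrrCharacter S :=
  ⟨fun s => (χ : S → ℂ) (a⁻¹ s), Core.isIrr_comp (a⁻¹ : MulAut S).toMonoidHom (a⁻¹ : MulAut S).surjective χ.2⟩

/-- the action of a group of automorphisms on the irreducible characters -/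
@[reducible] def twAct (A : Subgroup (MulAut S)) : MulAction A (IrrCharacter S) where
  smul a χ := tw (a : MulAut S) χ
  one_smul χ := by
    apply Subtype.ext
    funext s
    show (χ : S → ℂ) ((1 : MulAut S)⁻¹ s) = (χ : S → ℂ) s
    rw [inv_one]; rfl
  mul_smul a b χ := by
    apply Subtype.ext
    funext s
    show (χ : S → ℂ) (((a : MulAut S) * (b : MulAut S))⁻¹ s) = (χ : S → ℂ) ((b : MulAut S)⁻¹ ((a : MulAut S)⁻¹ s))
    rw [mul_inv_rev]; rfl

theorem inner_comp [Fintype S] (a : MulAut S) (f g : S → ℂ) :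
    classInner (fun s => f (a s)) (fun s => g (a s)) = classInner f g := by
  rw [Core.classInner_def, Core.classInner_def]
  congr 1
  exact Fintype.sum_equiv a.toEquiv _ _ fun _ => rfl

theorem inner_tw [Fintype S] (a : MulAut S) {Ψ : S → ℂ} (h : ∀ x, Ψ (a x) = Ψ x) (χ : IrrCharacter S) :
    classInner Ψ (tw a χ : S → ℂ) = classInner Ψ (χ : S → ℂ) := by
  rw [← inner_comp a Ψ (tw a χ : S → ℂ)]
  have h1 : (fun s => Ψ (a s)) = Ψ := funext h
  have h2 : (fun s => (tw a χ : S → ℂ) (a s)) = (χ : S → ℂ) := by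
    funext s
    show (χ : S → ℂ) (a⁻¹ (a s)) = _
    rw [MulAut.inv_apply_self]
  rw [h1, h2]

theorem tw_one' (a : MulAut S) (χ : IrrCharacter S) : (tw a χ : S → ℂ) 1 = (χ : S → ℂ) 1 := by
  show (χ : S → ℂ) (a⁻¹ 1) = _
  rw [map_one]

variable {p : ℕ} [hp : Fact p.Prime] {A : Subgroup (MulAut S)} {Ψ : S → ℂ}

/-- **some constituent of an invariant character of degree prime to `p` is invariant and of degree prime to `p`** -/
theorem exists_fixed [Fintype S] (hA : IsPGroup p A) (hΨ : IsCharacter S Ψ) {d : ℕ} (hd : Ψ 1 = d) (hpd : ¬ p ∣ d)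
    (hinv : ∀ a ∈ A, ∀ x, Ψ (a x) = Ψ x) :
    ∃ θ : S → ℂ, IsIrrCharacter S θ ∧ classInner Ψ θ ≠ 0 ∧ (∃ e : ℕ, θ 1 = e ∧ ¬ p ∣ e) ∧
      ∀ a ∈ A, ∀ x, θ (a x) = θ x := by
  classical
  have := Core.finite_irr (G := S)
  have := Fintype.ofFinite (IrrCharacter S)
  obtain ⟨m, hm⟩ := Core.exists_nat_comb hΨ
  choose e he0 he using fun χ : IrrCharacter S => Core.isIrr_apply_one χ.2
  have hmi : ∀ χ : IrrCharacter S, classInner Ψ (χ : S → ℂ) = m χ := by
    intro χ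
    rw [hm]
    exact Core.classInner_sum_nsmul_irr m χ
  have hsum : (d : ℤ) = ∑ χ : IrrCharacter S, ((m χ * e χ : ℕ) : ℤ) := by
    have h1 := congrFun hm 1
    rw [hd, Finset.sum_apply] at h1
    have h2 : (d : ℂ) = ∑ χ : IrrCharacter S, ((m χ * e χ : ℕ) : ℂ) := by
      rw [h1]
      refine Finset.sum_congr rfl fun χ _ => ?_
      rw [Pi.smul_apply, he χ, nsmul_eq_mul]
      push_cast
      rfl
    have h3 : (d : ℂ) = ((∑ χ : IrrCharacter S, (m χ * e χ) : ℕ) : ℂ) := by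
      rw [h2]
      push_cast
      rfl
    have h4 : d = ∑ χ : IrrCharacter S, (m χ * e χ) := by exact_mod_cast h3
    rw [h4]
    push_cast
    rfl
  let _ := twAct A
  obtain ⟨c, hc⟩ := Cfsg.Agent.Blocks.OrbitSum.sum_eq_sum_fixed_add_smul (p := p) hA
    (fun χ : IrrCharacter S => ((m χ * e χ : ℕ) : ℤ)) (by
      intro a χ
      have h1 : m (tw (a : MulAut S) χ) = m χ := by
        have h2 := inner_tw (a : MulAut S) (hinv a a.2) χ
        rw [hmi, hmi] at h2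
        exact_mod_cast h2
      have h3 : e (tw (a : MulAut S) χ) = e χ := by
        have h4 := tw_one' (a : MulAut S) χ
        rw [he, he] at h4
        exact_mod_cast h4
      show ((m (tw (a : MulAut S) χ) * e (tw (a : MulAut S) χ) : ℕ) : ℤ) = _
      rw [h1, h3])
  have h5 : ∃ χ : IrrCharacter S, χ ∈ MulAction.fixedPoints A (IrrCharacter S) ∧ ¬ p ∣ m χ * e χ := by
    by_contra hcon
    push Not at hcon
    apply hpd
    have h6 : (p : ℤ) ∣ (d : ℤ) := by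
      rw [hsum, hc]
      refine dvd_add (Finset.dvd_sum fun χ hχ => ?_) ⟨c, nsmul_eq_mul _ _⟩
      exact_mod_cast hcon χ (Finset.mem_filter.1 hχ).2
    exact_mod_cast h6
  obtain ⟨χ, hχ, hχp⟩ := h5
  refine ⟨χ, χ.2, fun h0 => hχp ?_, ⟨e χ, he χ, fun h => hχp (h.mul_left _)⟩, fun a ha x => ?_⟩
  · rw [hmi] at h0
    have h7 : m χ = 0 := by exact_mod_cast h0
    rw [h7, zero_mul]
    exact dvd_zero p
  · have h8 : tw (a⁻¹ : MulAut S) χ = χ := hχ ⟨a⁻¹, A.inv_mem ha⟩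
    have h9 := congrArg (fun θ : IrrCharacter S => (θ : S → ℂ) x) h8
    have h10 : (χ : S → ℂ) ((a⁻¹)⁻¹ x) = (χ : S → ℂ) x := h9
    rwa [inv_inv] at h10

/-! ## Galois -/

/-- a common field for finitely many `p`-rational functions -/
theorem common_fin {ι : Type v} [Finite ι] {X : Type u} (π : ι → X → ℂ) (h : ∀ i, PRat p (π i)) :
    ∃ n : ℕ, ¬ p ∣ n ∧ ∀ i g, π i g ∈ IntermediateField.adjoin ℚ ({zet n} : Set ℂ) := by
  classical
  have := Fintype.ofFinite ι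
  choose n hn h1 using h
  have hN : ¬ p ∣ ∏ i, n i := by
    rw [hp.out.prime.dvd_finset_prod_iff]
    rintro ⟨i, -, hi⟩
    exact hn i hi
  have hN0 : ∏ i, n i ≠ 0 := fun h0 => hN (by rw [h0]; exact dvd_zero p)
  exact ⟨∏ i, n i, hN, fun i g => zet_mem_of_dvd hN0 (Finset.dvd_prod_of_mem n (Finset.mem_univ i)) (h1 i g)⟩

/-- the inner product of a `σ`-invariant character with a Galois conjugate -/
theorem inner_map [Fintype S] (σ : ℂ ≃+* ℂ) {Ψ χ : S → ℂ} (hΨ : IsCharacter S Ψ) (hχ : IsCharacter S χ)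
    (h : ∀ g, σ (Ψ g) = Ψ g) : classInner Ψ (fun g => σ (χ g)) = classInner Ψ χ := by
  have h1 := GaloisIrr.classInner_map σ (χ := Ψ) hχ
  have h2 : (fun g => σ (Ψ g)) = Ψ := funext h
  rw [h2] at h1
  rw [h1]
  obtain ⟨n, hn⟩ := Core.classInner_isNat hΨ hχ
  rw [hn, map_natCast]

/-- **the general odd tool** -/
theorem main' [Fintype S] (hA : IsPGroup p A) (hΨ : IsCharacter S Ψ) (h1 : classInner Ψ 1 = 0) {d : ℕ} (hd : Ψ 1 = d)
    (hpd : ¬ p ∣ d) (hrat : PRat p Ψ) (hinv : ∀ a ∈ A, ∀ x, Ψ (a x) = Ψ x) {ι : Type v} [Finite ι]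
    (π : ι → S → ℂ) (hπ : ∀ i, IsCharacter S (π i)) (hπr : ∀ i, PRat p (π i))
    (hsep : ∀ χ χ' : S → ℂ, IsIrrCharacter S χ → IsIrrCharacter S χ' → classInner Ψ χ ≠ 0 →
      classInner Ψ χ' = classInner Ψ χ → χ' 1 = χ 1 → (∀ i, classInner (π i) χ' = classInner (π i) χ) → χ' = χ) :
    ∃ θ, Wt p S A θ ∧ classInner Ψ θ ≠ 0 := by
  obtain ⟨θ, hθ, hc, hdeg, hfix⟩ := exists_fixed hA hΨ hd hpd hinv
  refine ⟨θ, ⟨hθ, fun h => hc (by rw [h, h1]), hdeg, ?_, hfix⟩, hc⟩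
  obtain ⟨n, hn, hF⟩ := common_fin (p := p) (fun o : Option ι => o.elim Ψ π) (by
    rintro (_ | i)
    · exact hrat
    · exact hπr i)
  refine (pRatC_iff (p := p) fun g => integral_irr (Core.isIrr_isCharacter hθ) g).2 ⟨n, hn, fun σ hσ g => ?_⟩
  have hθc := Core.isIrr_isCharacter hθ
  have key : (fun g => σ (θ g)) = θ := by
    refine hsep θ _ hθ (GaloisIrr.isIrr_map σ hθ) hc ?_ ?_ fun i => ?_
    · exact inner_map σ hΨ hθc fun g => fix_adjoin σ hσ (hF none g)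
    · obtain ⟨e, he, -⟩ := hdeg
      show σ (θ 1) = θ 1
      rw [he, map_natCast]
    · exact inner_map σ (hπ i) hθc fun g => fix_adjoin σ hσ (hF (some i) g)
  exact congrFun key g

theorem main [Fintype S] (hA : IsPGroup p A) (hΨ : IsCharacter S Ψ) (h1 : classInner Ψ 1 = 0) {d : ℕ} (hd : Ψ 1 = d)
    (hpd : ¬ p ∣ d) (hrat : PRat p Ψ) (hinv : ∀ a ∈ A, ∀ x, Ψ (a x) = Ψ x) {ι : Type v} [Finite ι]
    (π : ι → S → ℂ) (hπ : ∀ i, IsCharacter S (π i)) (hπr : ∀ i, PRat p (π i))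
    (hsep : ∀ χ χ' : S → ℂ, IsIrrCharacter S χ → IsIrrCharacter S χ' → classInner Ψ χ ≠ 0 →
      classInner Ψ χ' = classInner Ψ χ → χ' 1 = χ 1 → (∀ i, classInner (π i) χ' = classInner (π i) χ) → χ' = χ) :
    ∃ θ, Wt p S A θ := by
  obtain ⟨θ, hθ, -⟩ := main' hA hΨ h1 hd hpd hrat hinv π hπ hπr hsep
  exact ⟨θ, hθ⟩

/-! ## Norm two -/

/-- a character of norm two is the sum of two different constituents -/
theorem eq_add [Fintype S] (hΨ : IsCharacter S Ψ) (h2 : classInner Ψ Ψ = 2) {χ χ' : S → ℂ} (hχ : IsIrrCharacter S χ)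
    (hχ' : IsIrrCharacter S χ') (hne : χ ≠ χ') (h : classInner Ψ χ ≠ 0) (h' : classInner Ψ χ' ≠ 0) : Ψ = χ + χ' := by
  obtain ⟨a, ha⟩ := Core.classInner_isNat hΨ (Core.isIrr_isCharacter hχ)
  obtain ⟨b, hb⟩ := Core.classInner_isNat hΨ (Core.isIrr_isCharacter hχ')
  have ha' : classInner χ Ψ = a := by
    have h3 := Core.classInner_conj_symm Ψ χ
    rw [ha, map_natCast] at h3
    exact h3.symm
  have hb' : classInner χ' Ψ = b := by
    have h3 := Core.classInner_conj_symm Ψ χ'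
    rw [hb, map_natCast] at h3
    exact h3.symm
  have ha0 : 1 ≤ a := Nat.one_le_iff_ne_zero.2 fun h0 => h (by rw [ha, h0, Nat.cast_zero])
  have hb0 : 1 ≤ b := Nat.one_le_iff_ne_zero.2 fun h0 => h' (by rw [hb, h0, Nat.cast_zero])
  have h4 : classInner (Ψ - (χ + χ')) (Ψ - (χ + χ')) = ((4 - 2 * a - 2 * b : ℤ) : ℂ) := by
    rw [Core.classInner_sub_left, Core.classInner_sub_right, Core.classInner_sub_right, Core.classInner_add_left,
      Core.classInner_add_left, Core.classInner_add_right, Core.classInner_add_right, Core.classInner_add_right, h2, ha, hb, ha', hb',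
      Core.classInner_irr_self hχ, Core.classInner_irr_self hχ', Core.classInner_irr_ne hχ hχ' hne,
      Core.classInner_irr_ne hχ' hχ hne.symm]
    push_cast
    ring
  have h5 := Core.classInner_self_eq_ofReal (Ψ - (χ + χ'))
  rw [h4] at h5
  have h6 : (0 : ℝ) ≤ ((4 - 2 * a - 2 * b : ℤ) : ℝ) := by
    rw [← Complex.ofReal_intCast, Complex.ofReal_inj] at h5
    rw [h5]
    exact mul_nonneg (by positivity) (Finset.sum_nonneg fun g _ => Complex.normSq_nonneg _)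
  have h8 : (0 : ℤ) ≤ 4 - 2 * a - 2 * b := by exact_mod_cast h6
  have h9 : (4 - 2 * a - 2 * b : ℤ) = 0 := by omega
  rw [h9, Int.cast_zero] at h4
  exact sub_eq_zero.1 (Core.classInner_self_eq_zero h4)

/-- **(T1)** -/
theorem odd_tool' [Fintype S] (hA : IsPGroup p A) (hΨ : IsCharacter S Ψ) (h2 : classInner Ψ Ψ = 2)
    (h1 : classInner Ψ 1 = 0) {d : ℕ} (hd : Ψ 1 = d) (hpd : ¬ p ∣ d) (hrat : PRat p Ψ)
    (hinv : ∀ a ∈ A, ∀ x, Ψ (a x) = Ψ x) {π : S → ℂ} (hπ : IsCharacter S π) (hπr : PRat p π) {k : ℕ} (hk : Odd k)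
    (hin : classInner Ψ π = k) : ∃ θ, Wt p S A θ ∧ classInner Ψ θ ≠ 0 := by
  refine main' hA hΨ h1 hd hpd hrat hinv (fun _ : Unit => π) (fun _ => hπ) (fun _ => hπr) ?_
  intro χ χ' hχ hχ' h3 h4 _ h5
  by_contra hne
  have h6 := eq_add hΨ h2 hχ hχ' (Ne.symm hne) h3 (by rw [h4]; exact h3)
  have h7 := h5 ()
  obtain ⟨c, hc⟩ := Core.classInner_isNat (Core.isIrr_isCharacter hχ) hπ
  have h8 : classInner χ' π = c := by
    have h9 := Core.classInner_conj_symm π χ'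
    have h10 := Core.classInner_conj_symm π χ
    rw [h7, h10] at h9
    rw [← h9, hc]
  rw [h6, Core.classInner_add_left, hc, h8] at hin
  have h11 : c + c = k := by exact_mod_cast hin
  obtain ⟨j, hj⟩ := hk
  omega

/-- **(T1)** : `Ψ` of norm two, `⟨Ψ, π⟩` odd -/
theorem odd_tool [Fintype S] (hA : IsPGroup p A) (hΨ : IsCharacter S Ψ) (h2 : classInner Ψ Ψ = 2)
    (h1 : classInner Ψ 1 = 0) {d : ℕ} (hd : Ψ 1 = d) (hpd : ¬ p ∣ d) (hrat : PRat p Ψ)
    (hinv : ∀ a ∈ A, ∀ x, Ψ (a x) = Ψ x) {π : S → ℂ} (hπ : IsCharacter S π) (hπr : PRat p π)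
    (hin : classInner Ψ π = 1) : ∃ θ, Wt p S A θ := by
  obtain ⟨θ, hθ, -⟩ := odd_tool' hA hΨ h2 h1 hd hpd hrat hinv hπ hπr (k := 1) odd_one (by rw [hin, Nat.cast_one])
  exact ⟨θ, hθ⟩

/-- **(T1)** : `Ψ` of norm two and of odd degree -/
theorem odd_tool_deg' [Fintype S] (hA : IsPGroup p A) (hΨ : IsCharacter S Ψ) (h2 : classInner Ψ Ψ = 2)
    (h1 : classInner Ψ 1 = 0) {d : ℕ} (hd : Ψ 1 = d) (hodd : Odd d) (hpd : ¬ p ∣ d) (hrat : PRat p Ψ)
    (hinv : ∀ a ∈ A, ∀ x, Ψ (a x) = Ψ x) : ∃ θ, Wt p S A θ ∧ classInner Ψ θ ≠ 0 := by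
  refine main' hA hΨ h1 hd hpd hrat hinv (fun i : Empty => i.elim) (fun i => i.elim) (fun i => i.elim) ?_
  intro χ χ' hχ hχ' h3 h4 h5 _
  by_contra hne
  have h6 := eq_add hΨ h2 hχ hχ' (Ne.symm hne) h3 (by rw [h4]; exact h3)
  obtain ⟨c, -, hc⟩ := Core.isIrr_apply_one hχ
  rw [h6, Pi.add_apply, h5, hc] at hd
  have h11 : c + c = d := by exact_mod_cast hd
  obtain ⟨j, hj⟩ := hodd
  omega

theorem odd_tool_deg [Fintype S] (hA : IsPGroup p A) (hΨ : IsCharacter S Ψ) (h2 : classInner Ψ Ψ = 2)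
    (h1 : classInner Ψ 1 = 0) {d : ℕ} (hd : Ψ 1 = d) (hodd : Odd d) (hpd : ¬ p ∣ d) (hrat : PRat p Ψ)
    (hinv : ∀ a ∈ A, ∀ x, Ψ (a x) = Ψ x) : ∃ θ, Wt p S A θ := by
  obtain ⟨θ, hθ, -⟩ := odd_tool_deg' hA hΨ h2 h1 hd hodd hpd hrat hinv
  exact ⟨θ, hθ⟩

/-- **(T1)** : `Ψ` irreducible -/
theorem odd_tool_irr (hΨ : IsIrrCharacter S Ψ) (h1 : Ψ ≠ 1) {d : ℕ} (hd : Ψ 1 = d) (hpd : ¬ p ∣ d) (hrat : PRat p Ψ)
    (hinv : ∀ a ∈ A, ∀ x, Ψ (a x) = Ψ x) : Wt p S A Ψ :=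
  ⟨hΨ, h1, ⟨d, hd, hpd⟩, hrat, hinv⟩

/-! ## Norm three -/

/-- **norm three**: `π` and `π'` are `p`-rational with `⟨Ψ, π⟩ = ⟨Ψ, π'⟩ = 1` and no common constituent with `Ψ` (for
instance `⟨Ψ, π + π'⟩ = 2` and `⟨π, π'⟩ = 0`) -/
theorem odd_tool_three' [Fintype S] (hA : IsPGroup p A) (hΨ : IsCharacter S Ψ) (h3 : classInner Ψ Ψ = 3)
    (h1 : classInner Ψ 1 = 0) {d : ℕ} (hd : Ψ 1 = d) (hpd : ¬ p ∣ d) (hrat : PRat p Ψ)
    (hinv : ∀ a ∈ A, ∀ x, Ψ (a x) = Ψ x) {π π' : S → ℂ} (hπ : IsCharacter S π) (hπr : PRat p π)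
    (hπ' : IsCharacter S π') (hπr' : PRat p π')
    (hin : classInner Ψ π = 1) (hin' : classInner Ψ π' = 1) (h0 : classInner π π' = 0) :
    ∃ θ, Wt p S A θ ∧ classInner Ψ θ ≠ 0 := by
  classical
  have := Core.finite_irr (G := S)
  have := Fintype.ofFinite (IrrCharacter S)
  have nsymm : ∀ {f g : S → ℂ} {k : ℕ}, classInner f g = k → classInner g f = k := by
    intro f g k h
    have h' := Core.classInner_conj_symm f g
    rw [h, map_natCast] at h'
    exact h'.symm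
  obtain ⟨m, hm⟩ := Core.exists_nat_comb hΨ
  obtain ⟨a, ha⟩ := Core.exists_nat_comb hπ
  obtain ⟨b, hb⟩ := Core.exists_nat_comb hπ'
  have inn : ∀ c e : IrrCharacter S → ℕ, classInner (∑ ψ : IrrCharacter S, c ψ • (ψ : S → ℂ))
      (∑ ψ : IrrCharacter S, e ψ • (ψ : S → ℂ)) = ((∑ ψ, c ψ * e ψ : ℕ) : ℂ) := by
    intro c e
    have h4 := Core.classInner_sum_smul_sum_smul (fun ψ : IrrCharacter S => (c ψ : ℂ)) (fun ψ => (e ψ : ℂ))
    simp only [Nat.cast_smul_eq_nsmul, map_natCast] at h4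
    rw [h4]
    push_cast
    rfl
  have e3 : ∑ ψ, m ψ * m ψ = 3 := by
    have h4 := inn m m
    rw [← hm, h3] at h4
    exact_mod_cast h4.symm
  have ea : ∑ ψ, m ψ * a ψ = 1 := by
    have h4 := inn m a
    rw [← hm, ← ha, hin] at h4
    exact_mod_cast h4.symm
  have eb : ∑ ψ, m ψ * b ψ = 1 := by
    have h4 := inn m b
    rw [← hm, ← hb, hin'] at h4
    exact_mod_cast h4.symm
  have e0 : ∑ ψ, a ψ * b ψ = 0 := by
    have h4 := inn a b
    rw [← ha, ← hb, h0] at h4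
    exact_mod_cast h4.symm
  have hmi : ∀ χ : IrrCharacter S, classInner Ψ (χ : S → ℂ) = m χ := by
    intro χ
    rw [hm]
    exact Core.classInner_sum_nsmul_irr m χ
  have hai : ∀ χ : IrrCharacter S, classInner π (χ : S → ℂ) = a χ := by
    intro χ
    rw [ha]
    exact Core.classInner_sum_nsmul_irr a χ
  have hbi : ∀ χ : IrrCharacter S, classInner π' (χ : S → ℂ) = b χ := by
    intro χ
    rw [hb]
    exact Core.classInner_sum_nsmul_irr b χ
  refine main' hA hΨ h1 hd hpd hrat hinv (fun i : Bool => if i then π else π') (fun i => by cases i <;> assumption)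
    (fun i => by cases i <;> assumption) ?_
  intro χ₀ χ₀' hχ hχ' h5 h6 _ h7
  by_contra hne
  obtain ⟨χ, rfl⟩ : ∃ χ : IrrCharacter S, (χ : S → ℂ) = χ₀ := ⟨⟨_, hχ⟩, rfl⟩
  obtain ⟨χ', rfl⟩ : ∃ χ : IrrCharacter S, (χ : S → ℂ) = χ₀' := ⟨⟨_, hχ'⟩, rfl⟩
  have hne' : χ' ≠ χ := fun h => hne (by rw [h])
  have ha' : a χ' = a χ := by
    have h8 := h7 true
    simp only [if_true] at h8
    rw [hai, hai] at h8
    exact_mod_cast h8
  have hb' : b χ' = b χ := by
    have h8 := h7 false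
    simp only [Bool.false_eq_true, if_false] at h8
    rw [hbi, hbi] at h8
    exact_mod_cast h8
  have hm' : m χ' = m χ := by
    rw [hmi, hmi] at h6
    exact_mod_cast h6
  have hm0 : m χ ≠ 0 := by
    rw [hmi] at h5
    exact_mod_cast h5
  -- the constituents of `π`, `π'` in `Ψ`
  obtain ⟨α, hα⟩ : ∃ α, m α * a α ≠ 0 := by
    by_contra hcon
    push Not at hcon
    rw [Finset.sum_eq_zero fun ψ _ => hcon ψ] at ea
    omega
  obtain ⟨β, hβ⟩ : ∃ β, m β * b β ≠ 0 := by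
    by_contra hcon
    push Not at hcon
    rw [Finset.sum_eq_zero fun ψ _ => hcon ψ] at eb
    omega
  have hαβ : ∀ ψ, a ψ * b ψ = 0 := fun ψ => (Finset.sum_eq_zero_iff.1 e0) ψ (Finset.mem_univ ψ)
  have two : ∀ (f : IrrCharacter S → ℕ) (x y : IrrCharacter S), x ≠ y → f x + f y ≤ ∑ ψ, f ψ := by
    intro f x y hxy
    rw [← Finset.sum_pair hxy]
    exact Finset.sum_le_sum_of_subset (Finset.subset_univ _)
  have four : ∀ (f : IrrCharacter S → ℕ) (x y z w : IrrCharacter S), x ≠ y → x ≠ z → x ≠ w → y ≠ z → y ≠ w → z ≠ w →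
      f x + f y + f z + f w ≤ ∑ ψ, f ψ := by
    intro f x y z w h1 h2 h3 h4 h5 h6
    have h7 : ∑ ψ ∈ ({x, y, z, w} : Finset (IrrCharacter S)), f ψ = f x + f y + f z + f w := by
      rw [Finset.sum_insert (by simp [h1, h2, h3]), Finset.sum_insert (by simp [h4, h5]),
        Finset.sum_insert (by simp [h6]), Finset.sum_singleton]
      ring
    rw [← h7]
    exact Finset.sum_le_sum_of_subset (Finset.subset_univ _)
  -- `a χ = 0`, `b χ = 0`
  have haχ : a χ = 0 := by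
    by_contra h9
    have h10 := two (fun ψ => m ψ * a ψ) χ' χ hne'
    rw [ea, ha', hm'] at h10
    have h11 : 0 < m χ * a χ := Nat.pos_of_ne_zero (Nat.mul_ne_zero hm0 h9)
    omega
  have hbχ : b χ = 0 := by
    by_contra h9
    have h10 := two (fun ψ => m ψ * b ψ) χ' χ hne'
    rw [eb, hb', hm'] at h10
    have h11 : 0 < m χ * b χ := Nat.pos_of_ne_zero (Nat.mul_ne_zero hm0 h9)
    omega
  have h12 : α ≠ β := by
    rintro rfl
    rcases Nat.mul_eq_zero.1 (hαβ α) with h | h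
    · exact hα (by rw [h, mul_zero])
    · exact hβ (by rw [h, mul_zero])
  have h13 : α ≠ χ := by
    rintro rfl
    exact hα (by rw [haχ, mul_zero])
  have h14 : α ≠ χ' := by
    rintro rfl
    exact hα (by rw [ha', haχ, mul_zero])
  have h15 : β ≠ χ := by
    rintro rfl
    exact hβ (by rw [hbχ, mul_zero])
  have h16 : β ≠ χ' := by
    rintro rfl
    exact hβ (by rw [hb', hbχ, mul_zero])
  have h17 := four (fun ψ => m ψ * m ψ) α β χ χ' h12 h13 h14 h15 h16 hne'.symm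
  rw [e3] at h17
  have h18 : 0 < m α * m α := by
    have : m α ≠ 0 := fun h => hα (by rw [h, zero_mul])
    positivity
  have h19 : 0 < m β * m β := by
    have : m β ≠ 0 := fun h => hβ (by rw [h, zero_mul])
    positivity
  have h20 : 0 < m χ * m χ := by positivity
  have h21 : 0 < m χ' * m χ' := by
    rw [hm']
    exact h20
  omega

end Cfsg.Agent.H623.OddTool
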